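import Mathlib
import Cfsg.Agent.Spor.HeTy2
import Cfsg.Agent.Rec.L52.Final

/-!
A simple group with the order of the Held group, two classes of involutions and an involution centraliser of shape
`2^(1+6) . L₃(2)` is the Held group.
-/

set_option autoImplicit false
set_option maxRecDepth 100000
set_option synthInstance.maxSize 100000
set_option synthInstance.maxHeartbeats 1000000

namespace Cfsg.Agent.Spor.HeTy

open Subgroup Cfsg.Agent.Spor.HeFr Cfsg.Agent.Spor.MT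

/-- The type of an element: noncentral involutions in the first or second invariant subgroup, the other noncentral
involutions, and the rest. -/
def ty (t : EG) : Fin 4 :=
  if t * t = 1 ∧ t ≠ 1 ∧ t ≠ Z then
    (if t.v0 = 0 ∧ t.v1 = 0 ∧ t.v2 = 0 then 0 else if t.u0 = 0 ∧ t.u1 = 0 ∧ t.u2 = 0 then 1 else 2) else 3

theorem ty_ne {t : EG} : ty t ≠ 3 ↔ t * t = 1 ∧ t ≠ 1 ∧ t ≠ Z := by revert t; decide +kernel

theorem ty_Z (t : EG) : ty (Z * t) = ty t := by revert t; decide +kernel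

/-- Representatives of the types. -/
def rp (i : Fin 4) : EG := ![Bs 0, Bs 3, Bs 2 * Bs 4, 1] i

theorem ty_rp (i : Fin 4) : ty (rp i) = i := by revert i; decide +kernel

/-- Conjugacy under the element of order 7 and the extraspecial group. -/
def Ob (s t : EG) : Prop := ∃ k : Fin 7, t = T7^[k] s ∨ t = Z * T7^[k] s

instance (s t : EG) : Decidable (Ob s t) := inferInstanceAs (Decidable (∃ _, _))

/-- The first coordinates. -/
def pu (t : EG) : ZMod 2 × ZMod 2 × ZMod 2 := (t.u0, t.u1, t.u2)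

/-- Bases of the natural module. -/
def Tr : Type := {p : (ZMod 2 × ZMod 2 × ZMod 2) × (ZMod 2 × ZMod 2 × ZMod 2) × ZMod 2 × ZMod 2 × ZMod 2 //
  p.1 ≠ 0 ∧ p.2.1 ≠ 0 ∧ p.2.2 ≠ 0 ∧ p.1 + p.2.1 ≠ 0 ∧ p.1 + p.2.2 ≠ 0 ∧ p.2.1 + p.2.2 ≠ 0 ∧ p.1 + p.2.1 + p.2.2 ≠ 0}

theorem card_Tr : Nat.card Tr = 168 := by
  rw [Tr, Nat.card_eq_fintype_card, Fintype.card_subtype]; decide +kernel

theorem exists_Tr (T : EG → EG) (m : ∀ s t, T (s * t) = T s * T t) (h : ∀ t, ty t = 0 → ty (T t) = 0) :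
    ∃ p : Tr, ∀ j : Fin 3, ![p.1.1, p.1.2.1, p.1.2.2] j = pu (T (Bs (j.castAdd 3))) := by
  have a0 : ∀ t, ty t = 0 → pu t ≠ 0 := by decide +kernel
  have a1 : ∀ s t, pu s + pu t = pu (s * t) := fun _ _ => rfl
  refine ⟨⟨(pu (T (Bs 0)), pu (T (Bs 1)), pu (T (Bs 2))), ?_⟩, fun j => by fin_cases j <;> rfl⟩
  simp only [a1, ← m]
  refine ⟨?_, ?_, ?_, ?_, ?_, ?_, ?_⟩ <;> exact a0 _ (h _ (by decide +kernel))

/-- The action on the second invariant subgroup is determined by duality. -/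
def Du (T : EG → EG) : Prop := ∀ i : Fin 3, ∀ m, ty m = 1 →
  (∀ j : Fin 3, T (Bs (j.castAdd 3)) * m = m * T (Bs (j.castAdd 3)) ↔ j ≠ i) → Eqv Z m (T (Bs (i.natAdd 3)))

instance (s x y : EG) : Decidable (Eqv s x y) := inferInstanceAs (Decidable (_ ∨ _))

instance (T : EG → EG) : Decidable (Du T) := inferInstanceAs (Decidable (∀ _, _))

variable {G : Type*} [Group G] {Q : Subgroup G} {z : G} {π : centralizer ({z} : Set G) →* L3} {ν : EG →* G}

theorem ncard_image (hν : Function.Injective ν) (p : EG → Prop) [DecidablePred p] :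
    (ν '' {t | p t}).ncard = (Finset.univ.filter p).card := by
  rw [Set.ncard_image_of_injective _ hν, ← Set.ncard_coe_finset, Finset.coe_filter_univ]

/-- Conjugacy in the centraliser. -/
def CC (z : G) (ν : EG →* G) (s t : EG) : Prop := ∃ c ∈ centralizer ({z} : Set G), c * ν s * c⁻¹ = ν t

theorem CC.symm {s t : EG} (h : CC z ν s t) : CC z ν t s :=
  let ⟨c, hc, e⟩ := h
  ⟨c⁻¹, inv_mem hc, by rw [← e]; group⟩

theorem CC.trans {s t u : EG} (h : CC z ν s t) (k : CC z ν t u) : CC z ν s u :=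
  let ⟨c, hc, e⟩ := h
  let ⟨d, hd, e'⟩ := k
  ⟨d * c, mul_mem hd hc, by rw [← e', ← e]; group⟩

theorem CC.isConj {s t : EG} (h : CC z ν s t) : IsConj (ν s) (ν t) :=
  let ⟨c, _, e⟩ := h
  isConj_iff.2 ⟨c, e⟩

/-- A frame. -/
structure Fr (Q : Subgroup G) (z : G) (π : centralizer ({z} : Set G) →* L3) (ν : EG →* G) : Prop where
  h : HT Q z π
  hZ : ν Z = z
  range : ν.range = Q

/-- The element `c` maps type `i` to type `j`. -/
def Mv (ν : EG →* G) (c : G) (i j : Fin 4) : Prop := ∀ t, ty t = i → ∃ s, ty s = j ∧ c * ν t * c⁻¹ = ν s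

namespace Fr

variable (F : Fr Q z π ν)
include F

theorem inj : Function.Injective ν := injective_of_ne (F.hZ ▸ F.h.es.z_ne)

theorem mem (t : EG) : ν t ∈ Q := F.range ▸ ⟨t, rfl⟩

theorem ex {q : G} (hq : q ∈ Q) : ∃ t, ν t = q := by rwa [← F.range] at hq

theorem cz : Cz ν := fun x hx => by
  have : ∀ q ∈ Q, x * q = q * x := fun q hq => by obtain ⟨t, rfl⟩ := F.ex hq; exact hx t
  exact F.hZ ▸ F.h.es.center x (F.h.lg.centralizer_le fun q hq => (this q hq).symm) this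

theorem eqv_iff {s t : EG} : Eqv z (ν s) (ν t) ↔ Eqv Z s t := by
  rw [Eqv, Eqv, ← F.hZ, ← map_mul, F.inj.eq_iff, F.inj.eq_iff]

theorem comm_iff {s t : EG} : bf (ν s) (ν t) = 0 ↔ s * t = t * s := by
  rw [bf_eq_zero, ← map_mul, ← map_mul, F.inj.eq_iff]

theorem ne_iff {t : EG} : ty t ≠ 3 ↔ ν t * ν t = 1 ∧ ν t ≠ 1 ∧ ν t ≠ z := by
  rw [ty_ne, ← F.hZ, ← map_mul, ← map_one ν, F.inj.eq_iff, F.inj.ne_iff, F.inj.ne_iff]

theorem exists_conj {c : G} (hc : c ∈ centralizer ({z} : Set G)) {t : EG} (ht : ty t ≠ 3) :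
    ∃ s, ty s ≠ 3 ∧ c * ν t * c⁻¹ = ν s := by
  obtain ⟨s, hs⟩ := F.ex (F.h.lg.norm c (mem_centralizer_singleton.1 hc) _ (F.mem t))
  obtain ⟨h1, h2, h3⟩ := F.ne_iff.1 ht
  refine ⟨s, F.ne_iff.2 (hs ▸ ⟨Rec.conj_sq h1, by simpa using h2, fun e => h3 ?_⟩), hs.symm⟩
  rwa [← Rec.mem_cen'.1 hc, mul_left_inj, mul_right_inj] at e

theorem cc_Z {t : EG} (ht : ty t ≠ 3) : CC z ν t (Z * t) := by
  obtain ⟨-, h2, h3⟩ := F.ne_iff.1 ht
  obtain ⟨q, hq, e⟩ := F.h.es.exists_not_comm (F.mem t) h2 h3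
  exact ⟨q, F.h.le hq, by rw [map_mul, F.hZ, F.h.es.aes.conj_of_ne hq (F.mem t) e.symm]⟩

theorem cc_rp {x y : centralizer ({z} : Set G)} (hx : Act ν x T7) (hy : π y * π x = π x ^ 2 * π y) {t : EG}
    (ht : ty t ≠ 3) : CC z ν (rp (ty t)) t := by
  have h1 : ∀ (n : ℕ) t, sh (x : G) (ν t) n = ν (T7^[n] t) := fun n t => by
    induction n with
    | zero => exact sh_zero _
    | succ n ih => rw [← sh_succ, ih, hx, Function.iterate_succ_apply']
  have h2 : ∀ {s t}, ty t ≠ 3 → Ob s t → CC z ν s t := fun {s t} ht ⟨k, hk⟩ => by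
    have h3 : CC z ν s (T7^[k] s) := ⟨_, pow_mem x.2 k, h1 k s⟩
    rcases hk with rfl | rfl
    exacts [h3, h3.trans (F.cc_Z (by rwa [ty_Z] at ht))]
  have h3 : ∀ d d', ty d ≠ 3 → (∀ m, m * m = 1 → (∀ i : Fin 3, T7^[2 * i] m * m = m * T7^[2 * i] m ↔
      T7^[i] d * d = d * T7^[i] d) → Ob d' m) → CC z ν d d' := fun d d' hd h => by
    obtain ⟨m, hm, e⟩ := F.exists_conj y.2 hd
    refine CC.trans ⟨y, y.2, e⟩ (h2 hm (h m (ty_ne.1 hm).1 fun i => ?_)).symm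
    have h4 := F.h.eqv_conj (c := y * x ^ (i : ℕ)) (d := x ^ (2 * i : ℕ) * y) (by
      simp only [map_mul, map_pow, pow_mul]; exact (SemiconjBy.pow_right hy i).eq) (F.mem d)
    have h5 := F.h.es.aes.bf_eqv_left (e ▸ F.mem m : y * ν d * (y : G)⁻¹ ∈ Q) h4
    rw [← F.comm_iff, ← F.comm_iff, ← h1, ← h1, ← e, ← bf_sh (x := (y : G)) (sh (x : G) (ν d) i) (ν d) 1]
    refine iff_of_eq (congrArg (· = 0) ?_)
    convert h5.symm using 2 <;> simp only [sh] <;> push_cast <;> group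
  have h4 := h3 (Bs 2 * Bs 4) (Bs 2 * Bs 3 * Bs 4) (by decide +kernel) (by decide +kernel)
  have h5 := h3 (Bs 2 * Bs 3 * Bs 4) (Bs 2 * Bs 3) (by decide +kernel) (by decide +kernel)
  have h6 : ∀ t, ty t ≠ 3 → Ob (rp (ty t)) t ∨ ty t = 2 ∧ (Ob (Bs 2 * Bs 3 * Bs 4) t ∨ Ob (Bs 2 * Bs 3) t) := by
    decide +kernel
  rcases h6 t ht with e | ⟨e0, e | e⟩
  exacts [h2 ht e, e0 ▸ h4.trans (h2 ht e), e0 ▸ h4.trans (h5.trans (h2 ht e))]

variable [Finite G]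

theorem card_class {s : EG} (hs : ty s ≠ 3) (p : EG → Prop) [DecidablePred p] (h : ∀ t, p t → CC z ν s t) :
    ∃ n, (Finset.univ.filter p).card ≤ n ∧ n ≤ 70 ∧
      Nat.card ↥(centralizer ({z} : Set G) ⊓ centralizer {ν s}) * n = 21504 := by
  refine ⟨{y | ∃ c ∈ centralizer ({z} : Set G), c * ν s * c⁻¹ = y}.ncard, ?_, ?_, ?_⟩
  · rw [← ncard_image F.inj]
    exact Set.ncard_le_ncard (by rintro _ ⟨t, ht, rfl⟩; exact h t ht) (Set.toFinite _)
  · rw [show 70 = (Finset.univ.filter fun t => ty t ≠ 3).card by decide +kernel, ← ncard_image F.inj]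
    refine Set.ncard_le_ncard ?_ (Set.toFinite _)
    rintro _ ⟨c, hc, rfl⟩
    obtain ⟨t, ht, e⟩ := F.exists_conj hc hs
    exact ⟨t, ht, e.symm⟩
  · rw [FG.ncard_conj_orbit_subgroup, ← inf_relIndex_left, Inv.Fz.card_mul_relIndex inf_le_left, F.h.card_C]

variable (hi : (centralizer ({z} : Set G)).index = 187425)
  (h2 : ∀ a b : G, a * a = 1 → a ≠ 1 → b * b = 1 → b ≠ 1 → ¬ IsConj z a → ¬ IsConj z b → IsConj a b)
include hi h2

theorem exists_fused : ∃ s ∈ Q, IsConj z s ∧ s ≠ z := by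
  by_contra hc
  have hw : ∀ s ∈ Q, IsConj z s → s = z := fun s a b => by_contra fun c => hc ⟨s, a, b, c⟩
  have h0 := F.ne_iff.1 (show ty (Bs 0) ≠ 3 by decide +kernel)
  obtain ⟨n, a1, a2, a3⟩ := F.card_class (s := Bs 0) (by decide +kernel) (fun t => ty t ≠ 3) fun t ht => by
    obtain ⟨b1, b2, b3⟩ := F.ne_iff.1 ht
    exact F.h.conj_of_closed (by rw [hi]; norm_num) hw (F.mem _) h0.2.1 h0.2.2 (F.mem t) b2 b3
      (h2 _ _ h0.1 h0.2.1 b1 b2 (fun e => h0.2.2 (hw _ (F.mem _) e)) fun e => b3 (hw _ (F.mem _) e))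
  rw [show (Finset.univ.filter fun t => ty t ≠ 3).card = 70 by decide +kernel] at a1
  obtain rfl : n = 70 := by omega
  omega

variable (hr : ∀ t, ty t ≠ 3 → CC z ν (rp (ty t)) t)
include hr

omit h2 in
theorem parity : (IsConj z (ν (rp 0)) ↔ IsConj z (ν (rp 1))) ↔ ¬ IsConj z (ν (rp 2)) := by
  classical
  have a1 := dvd_ncard_of_conj (N := Q) (m := 4) ({w | IsConj z w} \ Q)
    (fun g hg y hy => ⟨hy.1.trans (isConj_iff.2 ⟨g, rfl⟩), fun e => hy.2 (by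
      simpa [mul_assoc] using mul_mem (mul_mem (inv_mem hg) e) hg)⟩)
    fun y hy => F.h.four_dvd (by obtain ⟨g, rfl⟩ := isConj_iff.1 hy.1; exact Rec.conj_sq F.h.es.z_sq) hy.2
  have a2 := Set.ncard_inter_add_ncard_diff_eq_ncard {w | IsConj z w} Q
  have a3 : ∀ b : Fin 4 → Bool, (Finset.univ.filter fun t => t = Z ∨ ty t ≠ 3 ∧ b (ty t) = true).card % 4 = 1 →
      ((b 0 = true ↔ b 1 = true) ↔ ¬ b 2 = true) := by decide +kernel
  have a4 : {w | IsConj z w} ∩ Q = ν '' {t | t = Z ∨ ty t ≠ 3 ∧ decide (IsConj z (ν (rp (ty t)))) = true} := by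
    ext w
    constructor
    · rintro ⟨b1, b2⟩
      obtain ⟨t, rfl⟩ := F.ex b2
      refine ⟨t, or_iff_not_imp_left.2 fun e => ?_, rfl⟩
      obtain ⟨g, hg⟩ := isConj_iff.1 b1
      have b3 : ty t ≠ 3 := F.ne_iff.2 ⟨hg ▸ Rec.conj_sq F.h.es.z_sq, hg ▸ by simpa using F.h.es.z_ne,
        fun e' => e (F.inj (e'.trans F.hZ.symm))⟩
      exact ⟨b3, decide_eq_true (b1.trans (hr t b3).isConj.symm)⟩
    · rintro ⟨t, rfl | ⟨b1, b2⟩, rfl⟩
      exacts [⟨F.hZ ▸ IsConj.refl _, F.mem _⟩, ⟨(of_decide_eq_true b2).trans (hr t b1).isConj, F.mem _⟩]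
  rw [FG.ncard_isConj_eq_index, hi, a4, ncard_image F.inj] at a2
  simpa using a3 (fun i => decide (IsConj z (ν (rp i)))) (by omega)

theorem not_cc {i : Fin 4} (h01 : i = 0 ∨ i = 1) : ¬ CC z ν (rp i) (rp 2) := fun e => by
  have a0 : IsConj z (ν (rp i)) := by
    obtain ⟨s, b1, b2, b3⟩ := F.exists_fused hi h2
    obtain ⟨t, rfl⟩ := F.ex b1
    obtain ⟨g, hg⟩ := isConj_iff.1 b2
    have b4 : ty t ≠ 3 := F.ne_iff.2 ⟨hg ▸ Rec.conj_sq F.h.es.z_sq, hg ▸ by simpa using F.h.es.z_ne, b3⟩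
    have b5 := b2.trans (hr t b4).isConj.symm
    have b6 := F.parity hi hr
    have b7 : IsConj z (ν (rp i)) ↔ IsConj z (ν (rp 2)) := ⟨fun a => a.trans e.isConj, fun a => a.trans e.isConj.symm⟩
    generalize ty t = j at b4 b5
    rcases h01 with rfl | rfl <;> fin_cases j <;> simp only [Fin.zero_eta, Fin.mk_one, Fin.reduceFinMk] at b4 b5 <;> tauto
  have a1 : ty (rp i) ≠ 3 := by rw [ty_rp]; rcases h01 with rfl | rfl <;> decide
  obtain ⟨g, hg⟩ := isConj_iff.1 a0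
  have a2 := F.h.dvd_card (ESPair.of_width F.h.es F.h.lg (by rw [F.h.card]; norm_num) (g := g) (hg ▸ F.mem _)
    (hg ▸ (F.ne_iff.1 a1).2.2))
  obtain ⟨n, b1, b2, b3⟩ := F.card_class a1 (fun t => ty t = i ∨ ty t = 2) fun t ht => by
    rcases ht with ht | ht
    exacts [ht ▸ hr t (by rwa [ty_rp, ← ht] at a1), e.trans (ht ▸ hr t (by rw [ht]; decide))]
  rw [show (Finset.univ.filter fun t => ty t = i ∨ ty t = 2).card = 56 by
    rcases h01 with rfl | rfl <;> decide +kernel] at b1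
  rw [hg] at a2
  obtain ⟨k, hk⟩ := a2
  rw [hk] at b3
  have : k * n = 84 := by linarith
  interval_cases n <;> omega

theorem mv_or {c : G} (hc : c ∈ centralizer ({z} : Set G)) : Mv ν c 0 0 ∧ Mv ν c 1 1 ∨ Mv ν c 0 1 ∧ Mv ν c 1 0 := by
  have a1 : ∀ t : EG, ∃ s, c * ν t * c⁻¹ = ν s := fun t =>
    (F.ex (F.h.lg.norm c (mem_centralizer_singleton.1 hc) _ (F.mem t))).imp fun _ => Eq.symm
  choose T hT using a1
  have a2 : ∀ s t, T (s * t) = T s * T t := fun s t => F.inj (by rw [map_mul, ← hT, ← hT, ← hT, map_mul, conj_mul])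
  have a3 : ∀ t, ty t < 2 → ty (T t) < 2 := fun t ht => by
    have b0 : ∀ i : Fin 4, (i < 2 → i ≠ 3 ∧ (i = 0 ∨ i = 1)) ∧ (i ≠ 3 → i ≠ 2 → i < 2) := by decide
    obtain ⟨s, b1, b2⟩ := F.exists_conj hc ((b0 _).1 ht).1
    obtain rfl : T t = s := F.inj ((hT t).symm.trans b2)
    exact (b0 _).2 b1 fun e => F.not_cc hi h2 hr ((b0 _).1 ht).2
      (((hr t ((b0 _).1 ht).1).trans ⟨c, hc, b2⟩).trans (e ▸ (hr _ b1).symm))
  have a4 : ∀ s t, ty s < 2 → ty s = ty t → ty (T s) = ty (T t) := fun s t hs e => by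
    have b1 : ∀ s, ty s < 2 → ∀ t, ty s = ty t → t = s ∨ t = Z * s ∨ ty (s * t) < 2 := by decide +kernel
    have b2 : ∀ s, ty s < 2 → ∀ t, ty t < 2 → ty (s * t) < 2 → ty s = ty t := by decide +kernel
    rcases b1 s hs t e with rfl | rfl | b
    · rfl
    · rw [a2, show T Z = Z from F.inj (by rw [← hT, F.hZ, Rec.mem_cen'.1 hc]), ty_Z]
    · exact b2 _ (a3 s hs) _ (a3 t (e ▸ hs)) (a2 s t ▸ a3 _ b)
  have a5 : ty (T (rp 0)) ≠ ty (T (rp 1)) := fun e => by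
    have b1 : ∀ s, ty s < 2 → ∀ t, ty s = ty t → s * t = t * s := by decide +kernel
    have b2 := b1 _ (a3 _ (by decide +kernel)) _ e
    rw [← a2, ← a2, ← F.inj.eq_iff, ← hT, ← hT, mul_left_inj, mul_right_inj, F.inj.eq_iff] at b2
    exact absurd b2 (by decide +kernel)
  have a6 : ∀ i j, i < 2 → ty (T (rp i)) = j → Mv ν c i j := fun i j h e t ht =>
    ⟨T t, (a4 t _ (ht ▸ h) (ht.trans (ty_rp i).symm)).trans e, hT t⟩
  have a7 : ∀ i j : Fin 4, i < 2 → j < 2 → i ≠ j → i = 0 ∧ j = 1 ∨ i = 1 ∧ j = 0 := by decide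
  exact (a7 _ _ (a3 _ (by decide +kernel)) (a3 _ (by decide +kernel)) a5).imp
    (fun e => ⟨a6 0 0 (by decide) e.1, a6 1 1 (by decide) e.2⟩) fun e => ⟨a6 0 1 (by decide) e.1, a6 1 0 (by decide) e.2⟩

theorem mv (c : centralizer ({z} : Set G)) : Mv ν c 0 0 ∧ Mv ν c 1 1 := by
  have a1 : ∀ {c d : G} {i j k}, Mv ν d i j → Mv ν c j k → Mv ν (c * d) i k := fun {c d i j k} a b t ht => by
    obtain ⟨s, hs, e⟩ := a t ht
    obtain ⟨u, hu, e'⟩ := b s hs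
    exact ⟨u, hu, by rw [← e', ← e]; group⟩
  let K : Subgroup (centralizer ({z} : Set G)) :=
    { carrier := {c | Mv ν c 0 0 ∧ Mv ν c 1 1}
      one_mem' := ⟨fun t ht => ⟨t, ht, by simp⟩, fun t ht => ⟨t, ht, by simp⟩⟩
      mul_mem' := fun a b => ⟨a1 b.1 a.1, a1 b.2 a.2⟩
      inv_mem' := fun {c} a => (F.mv_or hi h2 hr c⁻¹.2).resolve_right fun b => by
        obtain ⟨s, hs, e⟩ := a1 a.1 b.1 _ (ty_rp 0)
        obtain rfl : rp 0 = s := F.inj (by simpa using e)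
        exact absurd hs (by decide +kernel) }
  obtain ⟨k, hk, e⟩ : π c ∈ K.map π := (eq_top_of_sq (K := K.map π) fun g => by
    obtain ⟨d, rfl⟩ := F.h.surj g
    refine ⟨d * d, ?_, map_mul _ _ _⟩
    rcases F.mv_or hi h2 hr d.2 with a | a
    exacts [⟨a1 a.1 a.1, a1 a.2 a.2⟩, ⟨a1 a.1 a.2, a1 a.2 a.1⟩]).ge (mem_top _)
  have a2 : ∀ i, Mv ν k i i → Mv ν c i i := fun i a t ht => by
    obtain ⟨s, hs, e'⟩ := a t ht
    rcases F.h.eqv_conj e.symm (F.mem t) with b | b <;> rw [e'] at b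
    exacts [⟨s, hs, b⟩, ⟨Z * s, (ty_Z s).trans hs, by rw [b, map_mul, F.hZ]⟩]
  exact ⟨a2 0 hk.1, a2 1 hk.2⟩

theorem act_of (c : centralizer ({z} : Set G)) {T : EG →* EG} (hT : Du T)
    (h : ∀ j : Fin 3, Eqv z (c * ν (Bs (j.castAdd 3)) * (c : G)⁻¹) (ν (T (Bs (j.castAdd 3))))) :
    ∃ r, Act ν (c * ν r) T := by
  refine ActZ.exact ⟨F.hZ ▸ MData.z_comm_coe c, fun i => ?_⟩
  rw [F.hZ]
  refine Fin.addCases (m := 3) (n := 3) h (fun i => ?_) i
  obtain ⟨m, hm, e⟩ := (F.mv hi h2 hr c).2 (Bs (i.natAdd 3)) (by revert i; decide +kernel)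
  rw [e, F.eqv_iff]
  refine hT i m hm fun j => ?_
  rw [← F.comm_iff, ← F.h.es.aes.bf_eqv_left (F.mem m) (h j), ← e, bf_conj,
    show (c : G)⁻¹ * (c * ν (Bs (i.natAdd 3)) * (c : G)⁻¹) * c = ν (Bs (i.natAdd 3)) by group, F.comm_iff]
  clear e; revert i j; decide +kernel

theorem exists_act {T : EG →* EG} (hT : Du T) (h0 : ∀ t, ty t = 0 → ty (T t) = 0) : ∃ a, Act ν a T := by
  choose c hc using F.h.surj
  choose S hS using fun g => (F.mv hi h2 hr (c g)).1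
  have a1 : ∀ j : Fin 3, ty (Bs (j.castAdd 3)) = 0 := by decide +kernel
  have a2 : ∀ s, ty s = 0 → ∀ t, ty t = 0 → pu s = pu t → Eqv Z s t := by decide +kernel
  have a4 : ∀ g, ∃ T : EG → EG, (∀ t, c g * ν t * (c g : G)⁻¹ = ν (T t)) := fun g => by
    choose T hT using fun t => F.ex (F.h.lg.norm _ (MData.z_comm_coe (c g)) _ (F.mem t))
    exact ⟨T, fun t => (hT t).symm⟩
  choose U hU using a4
  have a5 : ∀ g t, ty t = 0 → ty (U g t) = 0 := fun g t ht => F.inj ((hS g t ht).2.symm.trans (hU g t)) ▸ (hS g t ht).1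
  choose P hP using fun g => exists_Tr (U g) (fun s t => F.inj (by rw [map_mul, ← hU, ← hU, ← hU, map_mul, conj_mul])) (a5 g)
  have a6 : Function.Injective P := fun g k e => by
    obtain ⟨r, hr'⟩ := F.act_of hi h2 hr ((c k)⁻¹ * c g) (T := MonoidHom.id EG) (by decide +kernel) fun j => by
      have := (F.eqv_iff.2 (a2 _ (a5 g _ (a1 j)) _ (a5 k _ (a1 j)) (by rw [← hP, ← hP, e]))).conj
        (MData.z_comm_coe (c k)⁻¹)
      rw [← hU, ← hU] at this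
      convert this using 1 <;> push_cast <;> simp [mul_assoc]
    have b1 : (((c k)⁻¹ * c g : centralizer ({z} : Set G)) : G) * ν r ∈ Q := by
      rcases F.cz _ fun t => mul_inv_eq_iff_eq_mul.1 (hr' t) with b | b <;> rw [b]
      exacts [one_mem Q, F.mem _]
    have b2 := (F.h.ker _).2 ((mul_mem_cancel_right (F.mem r)).1 b1)
    rwa [map_mul, map_inv, hc, hc, inv_mul_eq_one, eq_comm] at b2
  obtain ⟨p, hp⟩ := exists_Tr T T.map_mul h0
  have : Finite Tr := Nat.finite_of_card_ne_zero (by rw [card_Tr]; norm_num)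
  obtain ⟨g, rfl⟩ := (a6.bijective_of_nat_card_le (by rw [card_Tr, card_L3])).2 p
  obtain ⟨r, h⟩ := F.act_of hi h2 hr (c g) hT fun j => by
    rw [hU, F.eqv_iff]
    exact a2 _ (a5 g _ (a1 j)) _ (h0 _ (a1 j)) (by rw [← hP, hp])
  exact ⟨_, h⟩

omit hr in
theorem sq_eq {a : G} (ha : Act ν a Ta) : a * a = 1 := by
  refine (F.cz.eqv (ha.mul ha) Act.one (by decide +kernel) rfl).resolve_right fun e => ?_
  rw [mul_one] at e
  obtain ⟨s, b1, b2, b3⟩ := F.exists_fused hi h2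
  obtain ⟨g, rfl⟩ := isConj_iff.1 b2
  have hp := ESPair.of_width F.h.es F.h.lg (by rw [F.h.card]; norm_num) b1 b3
  obtain ⟨τ, e₁, e₂, c1, c2, c3, c4, c5, c6, c7, c8, c9, c10, c11⟩ := F.h.exists_tau hp
  let τ' : centralizer ({z} : Set G) := ⟨τ, mem_centralizer_singleton.2 c1⟩
  let a' : centralizer ({z} : Set G) := ⟨a, mem_centralizer_singleton.2 (F.hZ ▸ ha.z_comm rfl)⟩
  obtain ⟨k', hk⟩ := isConj_iff.1 (Cl.sl_three_isConj_of_invol (u := π τ') (v := π a')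
    (by rw [← map_mul, F.h.ker]; exact show τ * τ ∈ Q from c3 ▸ one_mem Q) (fun b => c2 ((F.h.ker _).1 b))
    (by rw [← map_mul, F.h.ker]; exact show a * a ∈ Q from e ▸ F.mem _) fun b => by
      have := F.h.es.aes.eqv_conj ((F.h.ker _).1 b) (F.mem (Bs 1))
      rw [show (a' : G) = a from rfl, ha, F.eqv_iff] at this
      exact absurd this (by decide +kernel))
  obtain ⟨k, rfl⟩ := F.h.surj k'
  obtain ⟨r, hr⟩ := F.ex ((F.h.ker (k * τ' * k⁻¹ * a'⁻¹)).1 (by simp only [map_mul, map_inv, hk, mul_inv_cancel]))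
  have n := F.h.lg.norm k (MData.z_comm_coe k)
  obtain ⟨t₁, d1⟩ := F.ex (n _ c4)
  obtain ⟨t₂, d2⟩ := F.ex (n _ c5)
  obtain ⟨u, d3⟩ := F.ex (n _ b1)
  have d4 : k * τ * (k : G)⁻¹ = ν r * a := by rw [hr]; simp [τ', a']
  have d5 : ∀ t, k * τ * (k : G)⁻¹ * ν t * (k * τ * (k : G)⁻¹)⁻¹ = ν (r * Ta t * r⁻¹) := fun t => by
    rw [d4, map_mul, map_mul, map_inv, ← ha]; group
  have d6 : ν Z = k * z * (k : G)⁻¹ := by rw [F.hZ, Rec.mem_cen'.1 k.2]
  have key : ∀ r, r * Ta r * Z = 1 → ∀ t₂, t₂ * t₂ = 1 → r * Ta t₂ * r⁻¹ = t₂ → ∀ t₁, t₁ * t₂ = t₂ * t₁ →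
      r * Ta t₁ * r⁻¹ * t₁⁻¹ ∈ [1, Z] ∨ t₂ ∈ [1, Z, r * Ta t₁ * r⁻¹ * t₁⁻¹, Z * (r * Ta t₁ * r⁻¹ * t₁⁻¹)] := by
    decide +kernel
  have d7 : r * Ta t₁ * r⁻¹ * t₁⁻¹ = u := F.inj (by
    rw [map_mul, map_inv, ← d5, d1, d3, mul_inv_eq_iff_eq_mul, conj_mul (a := g * z * g⁻¹), ← c6]; group)
  have d8 := key r (F.inj (by
      rw [map_mul, map_mul, ← ha, ← e, map_one, ← Rec.conj_sq (g := (k : G)) c3, d4]; group))
    t₂ (F.inj (by rw [map_mul, d2, map_one, Rec.conj_sq c8])) (F.inj (by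
      rw [← d5, d2]; (conv_rhs => rw [← c7]); group))
    t₁ (F.inj (by rw [map_mul, map_mul, d1, d2, conj_mul, conj_mul, c9]))
  simp only [d7, List.mem_cons, List.not_mem_nil, or_false, ← F.inj.eq_iff, map_mul, map_one, d2, d3, d6, conj_mul,
    conj_eq_one_iff, mul_left_inj, mul_right_inj] at d8 c11
  have := F.h.es.z_ne
  tauto

end Fr

theorem HT.iso_He [Finite G] [IsSimpleGroup G] (h : HT Q z π) (hG : Nat.card G = 4030387200)
    (h2 : ∀ a b : G, a * a = 1 → a ≠ 1 → b * b = 1 → b ≠ 1 → ¬ IsConj z a → ¬ IsConj z b → IsConj a b) :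
    Nonempty (G ≃* Cfsg.Spor.He) := by
  have hi : (centralizer ({z} : Set G)).index = 187425 := by
    have := card_mul_index (centralizer ({z} : Set G))
    rw [h.card_C, hG] at this
    omega
  obtain ⟨x', y', a1, a2, a3⟩ := exists_seven
  obtain ⟨x, rfl⟩ := h.surj x'
  obtain ⟨y, rfl⟩ := h.surj y'
  obtain ⟨ν, b1, b2, b3⟩ := Sv.exists_frame ⟨h.es, h.lg, MData.z_comm_coe x, (h.ker (x ^ 7)).1 (by rwa [map_pow]),
    fun e => a2 ((h.ker x).2 e)⟩ h.card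
  have F : Fr Q z π ν := ⟨h, b1, b2⟩
  obtain ⟨r, hr⟩ := b3.exact
  have hr' := fun t => F.cc_rp (t := t) (x := x * ⟨ν r, h.le (F.mem r)⟩) (y := y) hr
    (by rwa [map_mul, (h.ker ⟨ν r, _⟩).2 (F.mem r), mul_one])
  obtain ⟨a, ha⟩ := F.exists_act hi h2 hr' (T := Ta) (by decide +kernel) (by decide +kernel)
  obtain ⟨f, hf⟩ := F.exists_act hi h2 hr' (T := Tf) (by decide +kernel) (by decide +kernel)
  obtain ⟨b, hb⟩ := F.exists_act hi h2 hr' (T := Tb) (by decide +kernel) (by decide +kernel)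
  obtain ⟨s, -⟩ := exists_stH F.cz (b1 ▸ h.es.z_ne) ha hf hb (F.sq_eq hi h2 ha) (by rw [b1, h.card_C])
  rcases s.main_simple with ⟨⟨φ⟩⟩ | ⟨⟨φ⟩⟩ | e
  · exact absurd (hG.symm.trans ((Nat.card_congr φ.toEquiv).trans Rec.L52.card_SL5)) (by norm_num)
  · exact absurd (hG.symm.trans ((Nat.card_congr φ.toEquiv).trans Golay.card_M24)) (by norm_num)
  · exact e

end Cfsg.Agent.Spor.HeTy
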