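import Mathlib
import Cfsg.Agent.Spor.TTMisc
import Cfsg.Agent.Blk.ZStar
import Cfsg.Agent.GT.CoprimeSylow
import Cfsg.Agent.GT.ComplementSystem

/-!
A class of involutions whose products have `p`-power order (`p` odd) is central modulo `O_p`.
-/

set_option autoImplicit false

namespace Cfsg.Agent.Spor.TT

open Cfsg.Agent.GT

variable {G : Type*} [Group G]

theorem mul_mem_pCore_of_pow [Finite G] {p : ℕ} (hp : p.Prime) (hp2 : p ≠ 2) (d : G)
    (hd : orderOf d = 2)
    (hprod : ∀ a ∈ conjugatesOf d, ∀ b ∈ conjugatesOf d, ∃ k : ℕ, orderOf (a * b) = p ^ k) :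
    ∀ a ∈ conjugatesOf d, ∀ b ∈ conjugatesOf d, a * b ∈ pCore p G := by
  have := Fact.mk hp
  have hdd : d * d = 1 := by rw [← pow_two, ← hd, pow_orderOf_eq_one]
  have hdD : d ∈ conjugatesOf d := IsConj.refl d
  have hkey : ∀ q : ℕ, q.Prime → q ≠ p → ∀ g : G, ∀ k, (d * cj g d) ^ q ^ k = 1 → cj g d = d := by
    intro q hq hne g k h1
    obtain ⟨j, hj⟩ := hprod d hdD _ (isConj_cj g d)
    have h2 := orderOf_dvd_of_pow_eq_one h1
    rw [hj] at h2
    have h3 := Nat.Coprime.eq_one_of_dvd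
      (Nat.Coprime.pow j k ((Nat.coprime_primes hp hq).mpr hne.symm)) h2
    rw [← hj, orderOf_eq_one_iff] at h3
    rw [← inv_eq_of_mul_eq_one_right h3, inv_eq_of_mul_eq_one_right hdd]
  have hiso : IsIsolatedInvolution d := ⟨hd, fun g hc => hkey 2 Nat.prime_two hp2.symm g 1 (by
    have hc' : Commute d (cj g d) := hc
    rw [pow_one, hc'.mul_pow, ← cj_pow, pow_two, hdd, cj_one_right, mul_one])⟩
  have hn : Subgroup.zpowers d ≤ Subgroup.normalizer (oddCore G : Set G) :=
    Subgroup.le_normalizer_of_normal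
  have hcop : (Nat.card (Subgroup.zpowers d)).Coprime (Nat.card (oddCore G)) := by
    rw [Nat.card_zpowers, hd, Nat.coprime_two_left]; exact odd_card_oddCore
  have hS := fun (q : ℕ) [Fact q.Prime] =>
    CopAct.exists_invariant_sylow hn hcop (Or.inl (CopAct.isSolvable_zpowers d)) q
  obtain ⟨P, hP⟩ := hS p
  have hcop2 : (P : Subgroup (oddCore G)).index.Coprime
      ((Subgroup.centralizer {d}).subgroupOf (oddCore G)).index := by
    refine Nat.coprime_of_dvd fun q hq h1 h2 => ?_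
    have := Fact.mk hq
    have hne : q ≠ p := fun h3 => P.not_dvd_index (h3 ▸ h1)
    obtain ⟨Q, hQ⟩ := hS q
    refine Q.not_dvd_index (h2.trans (Subgroup.index_dvd_of_le fun x hx => ?_))
    obtain ⟨k, hk⟩ := (Q.isPGroup'.map (oddCore G).subtype)
      ⟨_, mul_cj_mem hdd (hQ (Subgroup.mem_zpowers d)) ⟨x, hx, rfl⟩⟩
    rintro _ rfl
    exact (cj_eq_self_iff.mp (hkey q hq hne _ k (congrArg Subtype.val hk))).symm
  have hall : ∀ a ∈ conjugatesOf d, d * a ∈ (P : Subgroup (oddCore G)).map (oddCore G).subtype := by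
    intro a ha
    obtain ⟨g, rfl⟩ := mem_conjugatesOf_iff.mp ha
    obtain ⟨k, hk, c, hc, rfl⟩ := hiso.exists_oddCore_mul_commute g
    obtain ⟨x, hx, y, hy, h1⟩ := HT.exists_mul_of_coprime_index hcop2 ⟨k, hk⟩
    have h2 : k = x * y := congrArg Subtype.val h1
    rw [← cj_cj, cj_of_commute hc, h2, ← cj_cj,
      cj_of_commute (show Commute d (y : G) from hy d rfl).symm]
    exact mul_cj_mem hdd (hP (Subgroup.mem_zpowers d)) ⟨x, hx, rfl⟩
  have hN : (rad (conjugatesOf d)).Normal := Subgroup.normalizer_eq_top_iff.mp (eq_top_iff.mpr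
    fun g _ => mem_normalizer_rad (fun s hs => hs.trans (isConj_cj g s))
      fun s hs => hs.trans (isConj_cj g⁻¹ s))
  refine fun a ha b hb => le_pCore ((P.isPGroup'.map (oddCore G).subtype).to_le
    (rad_le fun a ha b hb => ?_)) (mul_mem_rad ha hb)
  have h1 : a⁻¹ = a := by
    obtain ⟨g, rfl⟩ := mem_conjugatesOf_iff.mp ha
    rw [← cj_inv, inv_eq_of_mul_eq_one_right hdd]
  have : a * b = (d * a)⁻¹ * (d * b) := by rw [mul_inv_rev, h1]; group
  rw [this]
  exact Subgroup.mul_mem _ (Subgroup.inv_mem _ (hall a ha)) (hall b hb)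

end Cfsg.Agent.Spor.TT
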